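import Mathlib
import Cfsg.Agent.FrobThm.Basic

/-!
# Groups with the order and the (relevant part of the) spectrum of PSL(2,q), q odd

`JW.Hyp G p q E O`: `|G| = 2 q E O`, elements of order divisible by `p` have order `p`, elements of even
order have order dividing `E`.  Conclusion: the Sylow `p`-subgroups are abelian, self-centralising, and
there are `q + 1` of them.
-/

set_option autoImplicit false

namespace Cfsg.Agent.JW

open Subgroup

structure Hyp (G : Type*) [Group G] (p q E O : ℕ) : Prop where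
  pp : p.Prime
  p2 : p ≠ 2
  q5 : 5 ≤ q
  qp : ∃ f, q = p ^ f
  EO : (2 * E + 1 = q ∧ 2 * O = q + 1) ∨ (2 * E = q + 1 ∧ 2 * O + 1 = q)
  evE : Even E
  odO : Odd O
  card : Nat.card G = q * (2 * E * O)
  ordp : ∀ g : G, p ∣ orderOf g → orderOf g = p
  ord2 : ∀ g : G, 2 ∣ orderOf g → orderOf g ∣ E

section

variable {G : Type*} [Group G] [Finite G] {p q E O : ℕ}

omit [Finite G] in
theorem Hyp.sq (h : Hyp G p q E O) : 4 * E * O + 1 = q ^ 2 := by
  rcases h.EO with ⟨h1, h2⟩ | ⟨h1, h2⟩
  · have : q = 2 * O - 1 := by omega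
    obtain ⟨O', rfl⟩ : ∃ O', O = O' + 1 := ⟨O - 1, by have := h.q5; omega⟩
    have hE : E = O' := by omega
    subst hE
    have : q = 2 * E + 1 := by omega
    subst this
    ring
  · obtain ⟨E', rfl⟩ : ∃ E', E = E' + 1 := ⟨E - 1, by have := h.q5; omega⟩
    have hE : O = E' := by omega
    subst hE
    have : q = 2 * O + 1 := by omega
    subst this
    ring

omit [Finite G] in
theorem Hyp.pq (h : Hyp G p q E O) : p ∣ q := by
  obtain ⟨f, hf⟩ := h.qp
  have : f ≠ 0 := by
    rintro rfl
    have := h.q5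
    rw [pow_zero] at hf
    omega
  rw [hf]
  exact dvd_pow_self p this

omit [Finite G] in
theorem Hyp.cop (h : Hyp G p q E O) : p.Coprime (2 * E * O) := by
  rw [h.pp.coprime_iff_not_dvd]
  intro h1
  have h2 : p ∣ 4 * E * O := by
    have : 4 * E * O = 2 * (2 * E * O) := by ring
    rw [this]
    exact h1.mul_left 2
  have h3 : p ∣ 4 * E * O + 1 := by
    rw [h.sq]
    exact (h.pq).trans (dvd_pow_self q two_ne_zero)
  have h4 : p ∣ 1 := (Nat.dvd_add_right h2).1 h3
  exact h.pp.one_lt.ne' (Nat.dvd_one.1 h4)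

omit [Finite G] in
theorem Hyp.copq (h : Hyp G p q E O) : q.Coprime (2 * E * O) := by
  obtain ⟨f, hf⟩ := h.qp
  rw [hf]
  exact Nat.Coprime.pow_left f h.cop

omit [Finite G] in
theorem Hyp.copE (h : Hyp G p q E O) : E.Coprime (q * O) := by
  apply Nat.Coprime.mul_right
  · have := h.copq.symm
    exact Nat.Coprime.coprime_dvd_left (by exact ⟨2 * O, by ring⟩) this
  · rcases h.EO with ⟨h1, h2⟩ | ⟨h1, h2⟩
    · have : O = E + 1 := by omega
      rw [this]
      simp
    · have : E = O + 1 := by omega
      rw [this]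
      simp

omit [Finite G] in
theorem Hyp.EOpos (h : Hyp G p q E O) : 0 < 2 * E * O := by
  have h1 := h.sq
  have h2 := h.q5
  rcases Nat.eq_zero_or_pos (2 * E * O) with h0 | h0
  · exfalso
    have : 4 * E * O = 2 * (2 * E * O) := by ring
    rw [this, h0] at h1
    nlinarith
  · exact h0

theorem Hyp.fact (h : Hyp G p q E O) : (Nat.card G).factorization p = (q).factorization p := by
  rw [h.card, Nat.factorization_mul (by have := h.q5; omega) h.EOpos.ne']
  have : (2 * E * O).factorization p = 0 := by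
    apply Nat.factorization_eq_zero_of_not_dvd
    rw [← h.pp.coprime_iff_not_dvd]
    exact h.cop
  simp [this]

theorem Hyp.qfact (h : Hyp G p q E O) : q = p ^ (Nat.card G).factorization p := by
  rw [h.fact]
  obtain ⟨f, hf⟩ := h.qp
  rw [hf, Nat.Prime.factorization_pow h.pp]
  simp

/-- centralizers of `p`-elements have exponent `p` -/
theorem Hyp.pow_cent (h : Hyp G p q E O) {x y : G} (hx : x ^ p = 1) (hx1 : x ≠ 1) (hy : Commute x y) :
    y ^ p = 1 := by
  haveI := Fact.mk h.pp
  have hox : orderOf x = p := orderOf_eq_prime hx hx1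
  by_cases hd : p ∣ orderOf y
  · rw [← h.ordp y hd]
    exact pow_orderOf_eq_one y
  · have hc : (orderOf x).Coprime (orderOf y) := by
      rw [hox]
      exact (h.pp.coprime_iff_not_dvd).2 hd
    have h1 := hy.orderOf_mul_eq_mul_orderOf_of_coprime hc
    have h2 := h.ordp (x * y) (by rw [h1, hox]; exact dvd_mul_right _ _)
    rw [h1, hox] at h2
    have h3 : orderOf y = 1 := by
      have := h.pp.pos
      exact Nat.eq_of_mul_eq_mul_left this (by rw [h2, mul_one])
    rw [orderOf_eq_one_iff.1 h3, one_pow]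

theorem Hyp.card_cent_dvd (h : Hyp G p q E O) {x : G} (hx : x ^ p = 1) (hx1 : x ≠ 1) :
    Nat.card (centralizer ({x} : Set G)) ∣ q := by
  haveI := Fact.mk h.pp
  have hP : IsPGroup p (centralizer ({x} : Set G)) := by
    intro y
    refine ⟨1, ?_⟩
    rw [pow_one]
    apply Subtype.ext
    have := Subgroup.mem_centralizer_singleton_iff.1 y.2
    exact h.pow_cent hx hx1 (show Commute x (y : G) from this.symm)
  obtain ⟨k, hk⟩ := IsPGroup.iff_card.1 hP
  rw [hk]
  have h1 : p ^ k ∣ q * (2 * E * O) := by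
    rw [← hk, ← h.card]
    exact Subgroup.card_subgroup_dvd_card _
  exact (Nat.Coprime.pow_left k h.cop).dvd_of_dvd_mul_right h1

theorem Hyp.pow_q_iff (h : Hyp G p q E O) (x : G) : x ^ q = 1 ↔ x ^ p = 1 := by
  obtain ⟨f, hf⟩ := h.qp
  constructor
  · intro hx
    have h1 : orderOf x ∣ p ^ f := by rw [← hf]; exact orderOf_dvd_of_pow_eq_one hx
    by_cases h2 : p ∣ orderOf x
    · rw [← h.ordp x h2]
      exact pow_orderOf_eq_one x
    · have h3 : (orderOf x).Coprime (p ^ f) := by
        apply Nat.Coprime.pow_right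
        exact ((h.pp.coprime_iff_not_dvd).2 h2).symm
      have h4 : orderOf x = 1 := Nat.Coprime.eq_one_of_dvd h3 h1
      rw [orderOf_eq_one_iff.1 h4, one_pow]
  · intro hx
    obtain ⟨c, hc⟩ := h.pq
    rw [hc, pow_mul, hx, one_pow]

/-- there are exactly `q ^ 2 - 1` non-identity `p`-elements, and all their centralizers have order `q` -/
theorem Hyp.count (h : Hyp G p q E O) :
    Nat.card {x : G // x ≠ 1 ∧ x ^ p = 1} = 4 * E * O ∧
      ∀ x : G, x ^ p = 1 → x ≠ 1 → Nat.card (centralizer ({x} : Set G)) = q := by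
  classical
  haveI := Fintype.ofFinite G
  set X : Finset G := Finset.univ.filter (fun x : G => x ≠ 1 ∧ x ^ p = 1) with hX
  have hXc : Nat.card {x : G // x ≠ 1 ∧ x ^ p = 1} = X.card := by
    rw [Nat.card_eq_fintype_card, Fintype.card_subtype]
  -- index of centralizers
  have hidx : ∀ x : G, x ^ p = 1 → x ≠ 1 → ∃ c, c * Nat.card (centralizer ({x} : Set G)) = q ∧
      (centralizer ({x} : Set G)).index = 2 * E * O * c := by
    intro x hx hx1
    obtain ⟨c, hc⟩ := h.card_cent_dvd hx hx1
    refine ⟨c, by rw [hc, mul_comm], ?_⟩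
    have h1 := Subgroup.index_mul_card (centralizer ({x} : Set G))
    rw [h.card] at h1
    have h0 : 0 < Nat.card (centralizer ({x} : Set G)) := Nat.card_pos
    apply Nat.eq_of_mul_eq_mul_right h0
    rw [h1]
    conv_lhs => rw [hc]
    ring
  have hdvd : 2 * E * O ∣ X.card := by
    have := FrobThm.dvd_sum_of_class (G := G) (fun x => if x ≠ 1 ∧ x ^ p = 1 then 1 else 0) (by
      intro g x
      have h1 : g * x * g⁻¹ ≠ 1 ↔ x ≠ 1 := by
        rw [not_iff_not]
        constructor
        · intro h2
          have : x = g⁻¹ * (g * x * g⁻¹) * g := by group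
          rw [this, h2]; group
        · rintro rfl; group
      have h2 : (g * x * g⁻¹) ^ p = 1 ↔ x ^ p = 1 := by
        rw [conj_pow]
        constructor
        · intro h2
          have : x ^ p = g⁻¹ * (g * x ^ p * g⁻¹) * g := by group
          rw [this, h2]; group
        · intro h2; rw [h2]; group
      simp only [h1, h2]) (2 * E * O) (by
      intro x
      by_cases hx : x ≠ 1 ∧ x ^ p = 1
      · obtain ⟨c, -, hc⟩ := hidx x hx.2 hx.1
        rw [if_pos hx, hc, mul_one]
        exact dvd_mul_right _ _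
      · rw [if_neg hx, mul_zero]
        exact dvd_zero _)
    rw [Finset.sum_boole] at this
    simpa [hX] using this
  obtain ⟨M, hM⟩ := hdvd
  have hfr : q ∣ X.card + 1 := by
    have h1 := FrobThm.dvd_card_pow_eq_one (G := G) q (by rw [h.card]; exact dvd_mul_right _ _)
    have h2 : Nat.card {g : G // g ^ q = 1} = X.card + 1 := by
      rw [Nat.card_eq_fintype_card, Fintype.card_subtype]
      have h3 : (Finset.univ.filter (fun g : G => g ^ q = 1)) = insert 1 X := by
        ext g
        simp only [Finset.mem_filter, Finset.mem_univ, true_and, Finset.mem_insert, hX]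
        rw [h.pow_q_iff]
        by_cases hg : g = 1
        · subst hg; simp
        · simp [hg]
      rw [h3, Finset.card_insert_of_notMem (by simp [hX])]
    rwa [h2] at h1
  have hlt : X.card < q * (2 * E * O) := by
    rw [← h.card, Nat.card_eq_fintype_card]
    apply Finset.card_lt_univ_of_notMem (x := 1)
    simp [hX]
  have hpos := h.EOpos
  have hMq : M < q := by
    rw [hM, mul_comm q] at hlt
    exact Nat.lt_of_mul_lt_mul_left hlt
  have hM2 : M = 2 := by
    have hsq := h.sq
    have h1 : (q : ℤ) ∣ (M : ℤ) - 2 := by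
      have h2 : (q : ℤ) ∣ ((X.card : ℤ) + 1) := by exact_mod_cast hfr
      obtain ⟨d, hd⟩ := h2
      refine ⟨q * M - 2 * d, ?_⟩
      have h3 : ((4 : ℤ) * E * O) + 1 = q ^ 2 := by exact_mod_cast hsq
      have h4 : (X.card : ℤ) = 2 * E * O * M := by exact_mod_cast hM
      have h5 : (2 : ℤ) * E * O * M + 1 = q * d := by rw [← h4]; exact hd
      linear_combination (M : ℤ) * h3 - 2 * h5
    have h6 := h.q5
    rcases h1 with ⟨d, hd⟩
    have h7 : (M : ℤ) < q := by exact_mod_cast hMq
    have h8 : (0 : ℤ) ≤ M := by positivity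
    have h9 : (5 : ℤ) ≤ q := by exact_mod_cast h6
    have h10 : d = 0 := by
      have hd1 : d < 1 := by
        by_contra hc
        push Not at hc
        nlinarith
      have hd2 : -1 < d := by
        by_contra hc
        push Not at hc
        nlinarith
      omega
    rw [h10] at hd
    omega
  rw [hM2] at hM
  refine ⟨by rw [hXc, hM]; ring, ?_⟩
  intro x hx hx1
  obtain ⟨c, hc1, hc2⟩ := hidx x hx hx1
  have h1 : (centralizer ({x} : Set G)).index ≤ X.card := by
    rw [← FrobThm.card_filter_mk_eq x]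
    apply Finset.card_le_card
    intro y hy
    rw [Finset.mem_filter, ConjClasses.mk_eq_mk_iff_isConj] at hy
    obtain ⟨g, hg⟩ := isConj_iff.1 hy.2.symm
    rw [hX, Finset.mem_filter]
    refine ⟨Finset.mem_univ _, ?_, ?_⟩
    · rintro rfl
      apply hx1
      have : x = g⁻¹ * (g * x * g⁻¹) * g := by group
      rw [this, hg]; group
    · rw [← hg, conj_pow, hx]; group
  rw [hc2, hM] at h1
  have h2 : c ≤ 2 := Nat.le_of_mul_le_mul_left h1 hpos
  have h3 : c ∣ q := ⟨_, hc1.symm⟩
  have hqodd : Odd q := by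
    rcases h.EO with ⟨h4, -⟩ | ⟨-, h4⟩
    · exact ⟨E, h4.symm⟩
    · exact ⟨O, h4.symm⟩
  have h4 : c ≠ 2 := by
    rintro rfl
    exact (Nat.not_even_iff_odd.2 hqodd) (even_iff_two_dvd.2 h3)
  have h5 : c ≠ 0 := by
    rintro rfl
    rw [zero_mul] at hc1
    have := h.q5
    omega
  have h6 : c = 1 := by omega
  rw [h6, one_mul] at hc1
  exact hc1

end

end Cfsg.Agent.JW
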