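import Mathlib
import Cfsg.Agent.JW.TI

set_option autoImplicit false

namespace Cfsg.Agent.JW

open Subgroup MulAction Pointwise

section

variable {G : Type*} [Group G] {p : ℕ}

/-- centre of a Sylow subgroup, as a subgroup of `G` -/
def zz (P : Sylow p G) : Subgroup G := (P : Subgroup G) ⊓ centralizer ((P : Subgroup G) : Set G)

theorem mem_zz {P : Sylow p G} {x : G} : x ∈ zz P ↔ x ∈ P ∧ ∀ y ∈ P, y * x = x * y := by
  rw [zz, Subgroup.mem_inf, Subgroup.mem_centralizer_iff]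
  rfl

theorem mem_smul {P : Sylow p G} {g x : G} : x ∈ g • P ↔ g⁻¹ * x * g ∈ P := by
  have h1 : x ∈ g • P ↔ x ∈ (MulAut.conj g • (P : Subgroup G)) := by
    rw [← Sylow.coe_subgroup_smul]
    rfl
  rw [h1, Subgroup.mem_pointwise_smul_iff_inv_smul_mem, ← map_inv, MulAut.smul_def,
    MulAut.conj_apply, inv_inv]
  rfl

theorem conj_mem_zz {P : Sylow p G} {x : G} (g : G) (hx : x ∈ zz P) : g * x * g⁻¹ ∈ zz (g • P) := by
  rw [mem_zz] at hx ⊢
  refine ⟨by rw [mem_smul]; convert hx.1 using 1; group, fun y hy => ?_⟩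
  rw [mem_smul] at hy
  have h1 := hx.2 _ hy
  calc y * (g * x * g⁻¹) = g * ((g⁻¹ * y * g) * x) * g⁻¹ := by group
    _ = g * (x * (g⁻¹ * y * g)) * g⁻¹ := by rw [h1]
    _ = g * x * g⁻¹ * y := by group

theorem conj_mem_zz_iff {P : Sylow p G} {x : G} (g : G) : g * x * g⁻¹ ∈ zz (g • P) ↔ x ∈ zz P := by
  refine ⟨fun h => ?_, conj_mem_zz g⟩
  have h1 := conj_mem_zz g⁻¹ h
  rw [inv_smul_smul] at h1
  convert h1 using 1
  group

variable [Finite G] {q E O : ℕ}

theorem card_ne_one (H : Subgroup G) : Nat.card {x : G // x ∈ H ∧ x ≠ 1} + 1 = Nat.card H := by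
  classical
  haveI : Fintype H := Fintype.ofFinite _
  have h3 : Nat.card {x : G // x ∈ H ∧ x ≠ 1} = Nat.card {x : H // x ≠ 1} := by
    apply Nat.card_congr
    exact
      { toFun := fun x => ⟨⟨x.1, x.2.1⟩, fun h4 => x.2.2 (congrArg Subtype.val h4)⟩
        invFun := fun x => ⟨x.1.1, x.1.2, fun h4 => x.2 (Subtype.ext h4)⟩
        left_inv := fun x => rfl
        right_inv := fun x => rfl }
  rw [h3, Nat.card_eq_fintype_card, Nat.card_eq_fintype_card, Fintype.card_subtype_compl,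
    Fintype.card_subtype_eq]
  have : 0 < Fintype.card H := Fintype.card_pos
  omega

theorem exists_smul [Fact p.Prime] (P Q : Sylow p G) : ∃ g : G, g • P = Q :=
  MulAction.exists_smul_eq G P Q

theorem card_zz [Fact p.Prime] (P Q : Sylow p G) :
    Nat.card {x : G // x ∈ zz P ∧ x ≠ 1} = Nat.card {x : G // x ∈ zz Q ∧ x ≠ 1} := by
  obtain ⟨g, rfl⟩ := exists_smul P Q
  refine Nat.card_congr ((MulAut.conj g).toEquiv.subtypeEquiv fun x => ?_)
  show _ ↔ g * x * g⁻¹ ∈ zz (g • P) ∧ g * x * g⁻¹ ≠ 1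
  rw [conj_mem_zz_iff]
  refine and_congr_right fun _ => not_congr ?_
  constructor
  · rintro rfl; group
  · intro h
    have : x = g⁻¹ * (g * x * g⁻¹) * g := by group
    rw [this, h]; group

theorem Hyp.card_syl (h : Hyp G p q E O) (P : Sylow p G) : Nat.card P = q := by
  haveI := Fact.mk h.pp
  exact P.card_eq_multiplicity.trans h.qfact.symm

theorem Hyp.pow_of_mem (h : Hyp G p q E O) {P : Sylow p G} {x : G} (hx : x ∈ P) : x ^ p = 1 := by
  rw [← h.pow_q_iff]
  have h1 : (⟨x, hx⟩ : P) ^ Nat.card P = 1 := pow_card_eq_one'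
  rw [h.card_syl] at h1
  exact congrArg Subtype.val h1

theorem Hyp.exists_syl (h : Hyp G p q E O) {x : G} (hx : x ^ p = 1) (hx1 : x ≠ 1) :
    ∃ P : Sylow p G, (P : Subgroup G) = centralizer ({x} : Set G) := by
  haveI := Fact.mk h.pp
  exact ⟨Sylow.ofCard (centralizer ({x} : Set G)) ((h.count.2 x hx hx1).trans h.qfact), rfl⟩

theorem Hyp.cent_of_zz (h : Hyp G p q E O) {P : Sylow p G} {w : G} (hw : w ∈ zz P) (hw1 : w ≠ 1) :
    centralizer ({w} : Set G) = P := by
  symm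
  apply Subgroup.eq_of_le_of_card_ge
  · intro y hy
    rw [Subgroup.mem_centralizer_singleton_iff]
    exact ((mem_zz.1 hw).2 y hy)
  · have h1 := h.card_syl P
    have h2 := h.count.2 w (h.pow_of_mem (mem_zz.1 hw).1) hw1
    rw [h2]
    exact h1.ge

theorem Hyp.exists_zz (h : Hyp G p q E O) (P : Sylow p G) : ∃ w ∈ zz P, w ≠ 1 := by
  haveI := Fact.mk h.pp
  haveI : Nontrivial P := by
    rw [← Finite.one_lt_card_iff_nontrivial, h.card_syl]
    have := h.q5
    omega
  haveI : Nontrivial (center P) := IsPGroup.center_nontrivial P.isPGroup'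
  obtain ⟨w, hw⟩ := exists_ne (1 : center P)
  refine ⟨((w : P) : G), mem_zz.2 ⟨(w : P).2, fun y hy => ?_⟩, fun h1 => hw ?_⟩
  · have := Subgroup.mem_center_iff.1 w.2 ⟨y, hy⟩
    exact congrArg Subtype.val this
  · apply Subtype.ext; apply Subtype.ext; exact h1

theorem Hyp.zz_inj (h : Hyp G p q E O) {P Q : Sylow p G} {w : G} (hw : w ∈ zz P) (hw' : w ∈ zz Q)
    (hw1 : w ≠ 1) : P = Q := by
  apply Sylow.ext
  rw [← h.cent_of_zz hw hw1, ← h.cent_of_zz hw' hw1]

/-- every `p`-element is central in a unique Sylow subgroup -/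
theorem Hyp.exists_mem_zz (h : Hyp G p q E O) {x : G} (hx : x ^ p = 1) (hx1 : x ≠ 1) :
    ∃ P : Sylow p G, x ∈ zz P ∧ (P : Subgroup G) = centralizer ({x} : Set G) := by
  obtain ⟨P, hP⟩ := h.exists_syl hx hx1
  refine ⟨P, mem_zz.2 ⟨?_, fun y hy => ?_⟩, hP⟩
  · show x ∈ (P : Subgroup G)
    rw [hP, Subgroup.mem_centralizer_singleton_iff]
  · have : y ∈ (P : Subgroup G) := hy
    rw [hP, Subgroup.mem_centralizer_singleton_iff] at this
    exact this

/-- `zz b ≤ c` is symmetric -/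
theorem Hyp.symm_le (h : Hyp G p q E O) {b c : Sylow p G} (hbc : zz b ≤ (c : Subgroup G)) :
    zz c ≤ (b : Subgroup G) := by
  obtain ⟨w, hw, hw1⟩ := h.exists_zz b
  intro v hv
  rw [← h.cent_of_zz hw hw1, Subgroup.mem_centralizer_singleton_iff]
  exact ((mem_zz.1 hv).2 w (hbc hw)).symm

theorem Hyp.adj (h : Hyp G p q E O) {a b : Sylow p G} {x : G} (hx : x ∈ a) (hx1 : x ≠ 1)
    (hb : x ∈ zz b) : zz b ≤ (a : Subgroup G) := by
  apply h.symm_le
  intro v hv
  rw [← h.cent_of_zz hb hx1, Subgroup.mem_centralizer_singleton_iff]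
  exact ((mem_zz.1 hv).2 x hx).symm

/-- count of all `p`-elements -/
theorem Hyp.card_total (h : Hyp G p q E O) (P : Sylow p G) :
    Nat.card (Sylow p G) * Nat.card {x : G // x ∈ zz P ∧ x ≠ 1} = 4 * E * O := by
  classical
  haveI := Fact.mk h.pp
  haveI : Fintype (Sylow p G) := Fintype.ofFinite _
  rw [← h.count.1]
  have h1 : Nat.card {x : G // x ≠ 1 ∧ x ^ p = 1} =
      Nat.card (Σ P : Sylow p G, {x : G // x ∈ zz P ∧ x ≠ 1}) := by
    symm
    apply Nat.card_congr
    refine Equiv.ofBijective (fun s => ⟨s.2.1, s.2.2.2, h.pow_of_mem (mem_zz.1 s.2.2.1).1⟩) ⟨?_, ?_⟩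
    · rintro ⟨P, x, hx⟩ ⟨Q, y, hy⟩ hxy
      have h2 : x = y := congrArg Subtype.val hxy
      subst h2
      have h3 := h.zz_inj hx.1 hy.1 hx.2
      subst h3
      rfl
    · rintro ⟨x, hx1, hx⟩
      obtain ⟨P, hP, -⟩ := h.exists_mem_zz hx hx1
      exact ⟨⟨P, x, hP, hx1⟩, rfl⟩
  rw [h1, Nat.card_sigma, Finset.sum_congr rfl (fun Q _ => card_zz Q P), Finset.sum_const,
    Finset.card_univ, smul_eq_mul, Nat.card_eq_fintype_card]

/-- count of the elements of one Sylow subgroup -/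
theorem Hyp.card_one (h : Hyp G p q E O) (P : Sylow p G) :
    Nat.card {b : Sylow p G // zz b ≤ (P : Subgroup G)} * Nat.card {x : G // x ∈ zz P ∧ x ≠ 1} + 1 = q := by
  classical
  haveI := Fact.mk h.pp
  haveI : Fintype {b : Sylow p G // zz b ≤ (P : Subgroup G)} := Fintype.ofFinite _
  have h1 : Nat.card {x : G // x ∈ P ∧ x ≠ 1} =
      Nat.card (Σ b : {b : Sylow p G // zz b ≤ (P : Subgroup G)}, {x : G // x ∈ zz b.1 ∧ x ≠ 1}) := by
    symm
    apply Nat.card_congr
    refine Equiv.ofBijective (fun s => ⟨s.2.1, s.1.2 s.2.2.1, s.2.2.2⟩) ⟨?_, ?_⟩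
    · rintro ⟨⟨P, hP⟩, x, hx⟩ ⟨⟨Q, hQ⟩, y, hy⟩ hxy
      have h2 : x = y := congrArg Subtype.val hxy
      subst h2
      have h3 := h.zz_inj hx.1 hy.1 hx.2
      simp only at h3
      subst h3
      rfl
    · rintro ⟨x, hx, hx1⟩
      obtain ⟨b, hb, -⟩ := h.exists_mem_zz (h.pow_of_mem hx) hx1
      exact ⟨⟨⟨b, h.adj hx hx1 hb⟩, x, hb, hx1⟩, rfl⟩
  have h2 : Nat.card {x : G // x ∈ P ∧ x ≠ 1} + 1 = q := by
    rw [← h.card_syl P]
    exact card_ne_one (P : Subgroup G)
  rw [← h2, h1, Nat.card_sigma, Finset.sum_congr rfl (fun b _ => card_zz b.1 P), Finset.sum_const,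
    Finset.card_univ, smul_eq_mul, Nat.card_eq_fintype_card]

theorem Hyp.exists_k (h : Hyp G p q E O) (P : Sylow p G) :
    ∃ k, 0 < k ∧ Nat.card (normalizer ((P : Subgroup G) : Set G)) = q * k ∧
      Nat.card (Sylow p G) * k = 2 * E * O ∧
      Nat.card {x : G // x ∈ zz P ∧ x ≠ 1} = 2 * k := by
  haveI := Fact.mk h.pp
  have h1 : Nat.card P ∣ Nat.card (normalizer ((P : Subgroup G) : Set G)) :=
    Subgroup.card_dvd_of_le Subgroup.le_normalizer
  rw [h.card_syl] at h1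
  obtain ⟨k, hk⟩ := h1
  have hq0 : 0 < q := by have := h.q5; omega
  have h2 : Nat.card (Sylow p G) * Nat.card (normalizer ((P : Subgroup G) : Set G)) = Nat.card G := by
    rw [P.card_eq_index_normalizer]
    exact Subgroup.index_mul_card _
  rw [hk, h.card] at h2
  have h3 : Nat.card (Sylow p G) * k = 2 * E * O := by
    apply Nat.eq_of_mul_eq_mul_left hq0
    rw [← h2]; ring
  have hpos := h.EOpos
  have hk0 : 0 < k := by
    rcases Nat.eq_zero_or_pos k with h4 | h4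
    · subst h4; rw [mul_zero] at h3; omega
    · exact h4
  have hn0 : 0 < Nat.card (Sylow p G) := Nat.card_pos
  refine ⟨k, hk0, hk, h3, ?_⟩
  apply Nat.eq_of_mul_eq_mul_left hn0
  rw [h.card_total P]
  have : 4 * E * O = 2 * (2 * E * O) := by ring
  rw [this, ← h3]; ring

/-- an involution normalising a subgroup of `p`-elements inverts it -/
theorem Hyp.inverts (h : Hyp G p q E O) {t : G} (ht : t ^ 2 = 1) (ht1 : t ≠ 1) (X : Subgroup G)
    (hX : ∀ x ∈ X, x ^ p = 1) (hn : ∀ x ∈ X, t * x * t⁻¹ ∈ X) :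
    ∀ x ∈ X, t * x * t⁻¹ = x⁻¹ := by
  let φ : X →* X :=
    { toFun := fun x => ⟨t * x * t⁻¹, hn x x.2⟩
      map_one' := by apply Subtype.ext; simp
      map_mul' := fun x y => by apply Subtype.ext; simp only [Subgroup.coe_mul]; group }
  have hf : MonoidHom.FixedPointFree φ := by
    intro x hx
    by_contra hx1
    have h1 : t * x * t⁻¹ = x := congrArg Subtype.val hx
    have h2 : Commute (x : G) t := by
      rw [commute_iff_eq]
      rw [mul_inv_eq_iff_eq_mul] at h1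
      exact h1.symm
    have h3 := h.pow_cent (hX x x.2) (fun h4 => hx1 (Subtype.ext h4)) h2
    have h4 : orderOf t ∣ p := orderOf_dvd_of_pow_eq_one h3
    have h5 : orderOf t = 2 := orderOf_eq_prime ht ht1
    rw [h5] at h4
    exact h.p2 ((Nat.prime_dvd_prime_iff_eq Nat.prime_two h.pp).1 h4).symm
  have hinv : Function.Involutive φ := by
    intro x
    apply Subtype.ext
    show t * (t * x * t⁻¹) * t⁻¹ = x
    have h7 : t * t = 1 := by rw [← pow_two]; exact ht
    have h6 : t⁻¹ = t := inv_eq_of_mul_eq_one_right h7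
    rw [h6]
    calc t * (t * x * t) * t = (t * t) * x * (t * t) := by group
      _ = x := by rw [h7]; simp
  intro x hx
  have := congrFun (hf.coe_eq_inv_of_involutive hinv) ⟨x, hx⟩
  exact congrArg Subtype.val this

end

end Cfsg.Agent.JW
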