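import Mathlib
import Cfsg.Agent.JW.Syl

set_option autoImplicit false

namespace Cfsg.Agent.JW

open Subgroup MulAction Pointwise

section

variable {G : Type*} [Group G] [Finite G] {p q E O : ℕ}

omit [Finite G] in
theorem comm_of_inv {t : G} (X : Subgroup G) (hX : ∀ x ∈ X, t * x * t⁻¹ = x⁻¹) :
    ∀ x ∈ X, ∀ y ∈ X, y * x = x * y := by
  intro x hx y hy
  have h1 := hX (x * y) (X.mul_mem hx hy)
  have h2 : t * (x * y) * t⁻¹ = x⁻¹ * y⁻¹ := by
    rw [← hX x hx, ← hX y hy]; group
  rw [h2, mul_inv_rev] at h1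
  have h3 := congrArg (fun z => z⁻¹) h1
  simpa [mul_inv_rev] using h3

/-- no involution inverts a nontrivial `p`-element, if the Sylow subgroups are not abelian -/
theorem Hyp.no_real (h : Hyp G p q E O) {P : Sylow p G} (hP : ¬ ∀ x ∈ P, ∀ y ∈ P, y * x = x * y)
    {t x : G} (ht : t ^ 2 = 1) (ht1 : t ≠ 1) (hx : x ^ p = 1) (hx1 : x ≠ 1) : t * x * t⁻¹ ≠ x⁻¹ := by
  haveI := Fact.mk h.pp
  intro hinv
  apply hP
  obtain ⟨Q, hQ⟩ := h.exists_syl hx hx1
  have hn : ∀ y ∈ (Q : Subgroup G), t * y * t⁻¹ ∈ (Q : Subgroup G) := by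
    intro y hy
    rw [hQ, Subgroup.mem_centralizer_singleton_iff] at hy ⊢
    have h1 : x = (t * x * t⁻¹)⁻¹ := by rw [hinv, inv_inv]
    have h2 : (t * y * t⁻¹) * (t * x * t⁻¹) = (t * x * t⁻¹) * (t * y * t⁻¹) := by
      calc (t * y * t⁻¹) * (t * x * t⁻¹) = t * (y * x) * t⁻¹ := by group
        _ = t * (x * y) * t⁻¹ := by rw [hy]
        _ = (t * x * t⁻¹) * (t * y * t⁻¹) := by group
    have h3 : Commute (t * y * t⁻¹) (t * x * t⁻¹) := h2
    have h4 := h3.inv_right
    rw [← h1] at h4
    exact h4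
  have h5 := comm_of_inv (Q : Subgroup G) (h.inverts ht ht1 _ (fun y hy => h.pow_of_mem hy) hn)
  obtain ⟨g, rfl⟩ := exists_smul Q P
  intro a ha b hb
  have ha' := mem_smul.1 ha
  have hb' := mem_smul.1 hb
  have h6 := h5 _ ha' _ hb'
  calc b * a = g * ((g⁻¹ * b * g) * (g⁻¹ * a * g)) * g⁻¹ := by group
    _ = g * ((g⁻¹ * a * g) * (g⁻¹ * b * g)) * g⁻¹ := by rw [h6]
    _ = a * b := by group

omit [Finite G] in
theorem inv_of_sq {t : G} (ht : t ^ 2 = 1) : t⁻¹ = t :=
  inv_eq_of_mul_eq_one_right (by rw [← pow_two]; exact ht)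

theorem Hyp.inj_aux (h : Hyp G p q E O) {P : Sylow p G} (hP : ¬ ∀ x ∈ P, ∀ y ∈ P, y * x = x * y)
    {t t' x x' : G} (ht : t ^ 2 = 1) (ht1 : t ≠ 1) (ht' : t' ^ 2 = 1) (hx : x ∈ P) (hx' : x' ∈ P)
    (he : t * x = t' * x') : t = t' ∧ x = x' := by
  have h0 : t'⁻¹ * t = x' * x⁻¹ := by
    rw [inv_mul_eq_iff_eq_mul, ← mul_assoc, ← he, mul_assoc, mul_inv_cancel, mul_one]
  have h1 : t'⁻¹ * t ∈ P := by
    rw [h0]; exact P.mul_mem hx' (P.inv_mem hx)
  by_cases h2 : t'⁻¹ * t = 1
  · rw [inv_mul_eq_one] at h2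
    subst h2
    exact ⟨rfl, mul_left_cancel he⟩
  · exfalso
    apply h.no_real hP ht ht1 (h.pow_of_mem h1) h2
    rw [mul_inv_rev, inv_inv, inv_of_sq ht']
    have := inv_of_sq ht
    rw [this]
    have h3 : t * t = 1 := by rw [← pow_two]; exact ht
    calc t * (t' * t) * t = t * t' * (t * t) := by group
      _ = t * t' := by rw [h3, mul_one]

theorem Hyp.comm (h : Hyp G p q E O) (P : Sylow p G) : ∀ x ∈ P, ∀ y ∈ P, y * x = x * y := by
  classical
  haveI := Fact.mk h.pp
  haveI : Fintype G := Fintype.ofFinite G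
  haveI : Fintype (Sylow p G) := Fintype.ofFinite _
  by_contra hP
  have hq0 : 0 < q := by have := h.q5; omega
  set I : Finset G := Finset.univ.filter (fun t : G => t ≠ 1 ∧ t ^ 2 = 1) with hI
  have memI : ∀ t, t ∈ I ↔ t ≠ 1 ∧ t ^ 2 = 1 := fun t => by simp [hI]
  -- (a)
  have ha : I.card * q ≤ q * (2 * E * O) := by
    rw [← h.card, ← h.card_syl P]
    have h1 : I.card = Nat.card I := by simp
    rw [h1, ← Nat.card_prod]
    apply Nat.card_le_card_of_injective (fun z : I × P => (z.1 : G) * (z.2 : G))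
    rintro ⟨⟨t, ht⟩, ⟨x, hx⟩⟩ ⟨⟨t', ht'⟩, ⟨x', hx'⟩⟩ he
    have ht2 := (memI t).1 ht
    have ht2' := (memI t').1 ht'
    obtain ⟨h2, h3⟩ := h.inj_aux hP ht2.2 ht2.1 ht2'.2 hx hx' he
    subst h2; subst h3; rfl
  have ha' : I.card ≤ 2 * E * O := by
    rw [mul_comm] at ha
    exact Nat.le_of_mul_le_mul_left ha hq0
  -- (b)
  have hb : q * O ≤ I.card := by
    have h2 : 2 ∣ Nat.card G := by rw [h.card]; exact ⟨q * E * O, by ring⟩
    obtain ⟨t0, ht0⟩ := exists_prime_orderOf_dvd_card' 2 h2
    have ht1 : t0 ≠ 1 := by rintro rfl; simp at ht0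
    have ht2 : t0 ^ 2 = 1 := by rw [← ht0]; exact pow_orderOf_eq_one _
    have hcop : (Nat.card (centralizer ({t0} : Set G))).Coprime (q * O) := by
      apply Nat.Coprime.symm
      apply Nat.Coprime.symm
      rw [Nat.coprime_iff_gcd_eq_one]
      by_contra hg
      obtain ⟨r, hr, hrd⟩ := Nat.exists_prime_and_dvd hg
      have hr1 := hrd.trans (Nat.gcd_dvd_left _ _)
      have hr2 := hrd.trans (Nat.gcd_dvd_right _ _)
      haveI := Fact.mk hr
      obtain ⟨y, hy⟩ := exists_prime_orderOf_dvd_card' r hr1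
      have hy1 : Commute (y : G) t0 := by
        have := Subgroup.mem_centralizer_singleton_iff.1 y.2
        exact this
      have hy2 : orderOf (y : G) = r := by rw [← hy]; exact (Subgroup.orderOf_coe y)
      have hr3 : r ≠ 2 := by
        rintro rfl
        have hqodd : Odd q := by
          rcases h.EO with ⟨h4, -⟩ | ⟨-, h4⟩
          · exact ⟨E, h4.symm⟩
          · exact ⟨O, h4.symm⟩
        have := hqodd.mul h.odO
        exact (Nat.not_even_iff_odd.2 this) (even_iff_two_dvd.2 hr2)
      have hc : (orderOf (y : G)).Coprime (orderOf t0) := by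
        rw [hy2, ht0, Nat.coprime_primes hr Nat.prime_two]; exact hr3
      have h4 := hy1.orderOf_mul_eq_mul_orderOf_of_coprime hc
      have h5 := h.ord2 ((y : G) * t0) (by rw [h4, ht0]; exact dvd_mul_left _ _)
      rw [h4, hy2] at h5
      have h6 : r ∣ E := (dvd_mul_right _ _).trans h5
      have h7 : r ∣ Nat.gcd E (q * O) := Nat.dvd_gcd h6 hr2
      rw [h.copE] at h7
      exact hr.one_lt.ne' (Nat.dvd_one.1 h7)
    have hd : Nat.card (centralizer ({t0} : Set G)) ∣ 2 * E := by
      have h4 : Nat.card (centralizer ({t0} : Set G)) ∣ (q * O) * (2 * E) := by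
        have h5 := Subgroup.card_subgroup_dvd_card (centralizer ({t0} : Set G))
        rw [h.card] at h5
        convert h5 using 1; ring
      exact hcop.dvd_of_dvd_mul_left h4
    have hpos := h.EOpos
    have hE : 0 < 2 * E := Nat.pos_of_mul_pos_right hpos
    have hle := Nat.le_of_dvd hE hd
    have hidx := Subgroup.index_mul_card (centralizer ({t0} : Set G))
    rw [h.card] at hidx
    have h6 : q * O ≤ (centralizer ({t0} : Set G)).index := by
      by_contra hc
      push Not at hc
      have h7 : (centralizer ({t0} : Set G)).index * Nat.card (centralizer ({t0} : Set G)) < q * O * (2 * E) := by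
        calc _ ≤ (centralizer ({t0} : Set G)).index * (2 * E) := Nat.mul_le_mul_left _ hle
          _ < q * O * (2 * E) := Nat.mul_lt_mul_of_pos_right hc hE
      rw [hidx] at h7
      have : q * (2 * E * O) = q * O * (2 * E) := by ring
      omega
    refine h6.trans ?_
    rw [← FrobThm.card_filter_mk_eq t0]
    apply Finset.card_le_card
    intro y hy
    rw [Finset.mem_filter, ConjClasses.mk_eq_mk_iff_isConj] at hy
    obtain ⟨g, hg⟩ := isConj_iff.1 hy.2.symm
    rw [memI]
    refine ⟨?_, ?_⟩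
    · rintro rfl
      apply ht1
      have : t0 = g⁻¹ * (g * t0 * g⁻¹) * g := by group
      rw [this, hg]; group
    · rw [← hg, conj_pow, ht2]; group
  -- (c)
  have hO0 : 0 < O := by
    rcases Nat.eq_zero_or_pos O with h0 | h0
    · have := h.odO; subst h0; simp at this
    · exact h0
  have hc : 2 * E = q + 1 ∧ 2 * O + 1 = q := by
    have h1 : q * O ≤ 2 * E * O := hb.trans ha'
    have h2 : q ≤ 2 * E := Nat.le_of_mul_le_mul_right h1 hO0
    rcases h.EO with ⟨h3, -⟩ | h3
    · omega
    · exact h3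
  -- (d)
  obtain ⟨k, hk0, hkN, hkn, hkw⟩ := h.exists_k P
  set A : Finset (Sylow p G) := Finset.univ.filter (fun b => zz b ≤ (P : Subgroup G)) with hA
  set B : Finset (Sylow p G) := Finset.univ.filter (fun b => (P : Subgroup G) ⊓ (b : Subgroup G) = ⊥) with hB
  have hIB : I.card ≤ k * B.card := by
    apply Finset.card_le_mul_card_image_of_maps_to (f := fun t : G => t • P)
    · intro t ht
      rw [memI] at ht
      rw [hB, Finset.mem_filter]
      refine ⟨Finset.mem_univ _, ?_⟩
      rw [eq_bot_iff]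
      intro x hx
      rw [Subgroup.mem_bot]
      by_contra hx1
      have hn : ∀ y ∈ (P : Subgroup G) ⊓ ((t • P : Sylow p G) : Subgroup G),
          t * y * t⁻¹ ∈ (P : Subgroup G) ⊓ ((t • P : Sylow p G) : Subgroup G) := by
        intro y hy
        rw [Subgroup.mem_inf] at hy ⊢
        constructor
        · have h1 : t⁻¹ * y * t ∈ P := mem_smul.1 hy.2
          have h2 := inv_of_sq ht.2
          rw [h2] at h1 ⊢
          exact h1
        · show t * y * t⁻¹ ∈ t • P
          rw [mem_smul]
          have h5 : t⁻¹ * (t * y * t⁻¹) * t = y := by group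
          rw [h5]
          exact hy.1
      have h3 := h.inverts ht.2 ht.1 _ (fun y hy => h.pow_of_mem (Subgroup.mem_inf.1 hy).1) hn x hx
      exact h.no_real hP ht.2 ht.1 (h.pow_of_mem (Subgroup.mem_inf.1 hx).1) hx1 h3
    · intro b _
      by_cases hne : ∃ t0, t0 ∈ I.filter (fun t => t • P = b)
      swap
      · rw [Finset.card_eq_zero.2]
        · exact Nat.zero_le _
        · rw [Finset.eq_empty_iff_forall_notMem]
          intro t ht
          exact hne ⟨t, ht⟩
      obtain ⟨t0, ht0⟩ := hne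
      rw [Finset.mem_filter, memI] at ht0
      have h1 : (I.filter (fun t => t • P = b)).card * q ≤ k * q := by
        rw [mul_comm k q, ← hkN]
        conv_lhs => rw [← h.card_syl P]
        have h1 : (I.filter (fun t => t • P = b)).card = Nat.card (I.filter (fun t => t • P = b)) :=
          (Nat.card_eq_fintype_card.trans (Fintype.card_coe _)).symm
        rw [h1, ← Nat.card_prod]
        have hmem : ∀ z : (I.filter (fun t => t • P = b)) × P,
            t0⁻¹ * ((z.1 : G) * (z.2 : G)) ∈ normalizer ((P : Subgroup G) : Set G) := by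
          intro z
          have h2 := (Finset.mem_filter.1 z.1.2).2
          rw [← mul_assoc]
          apply Subgroup.mul_mem
          · have h3 : (t0⁻¹ * (z.1 : G)) • P = P := by
              rw [mul_smul, h2]
              have h4 : t0⁻¹ • (t0 • P) = P := inv_smul_smul _ _
              rw [ht0.2] at h4
              exact h4
            exact Sylow.smul_eq_iff_mem_normalizer.1 h3
          · exact Subgroup.le_normalizer z.2.2
        apply Nat.card_le_card_of_injective (fun z : (I.filter (fun t => t • P = b)) × P =>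
          (⟨t0⁻¹ * ((z.1 : G) * (z.2 : G)), hmem z⟩ : normalizer ((P : Subgroup G) : Set G)))
        rintro ⟨⟨t, ht⟩, ⟨x, hx⟩⟩ ⟨⟨t', ht'⟩, ⟨x', hx'⟩⟩ he
        have he1 : t0⁻¹ * (t * x) = t0⁻¹ * (t' * x') := congrArg Subtype.val he
        have he2 : t * x = t' * x' := mul_left_cancel he1
        have ht2 := (memI t).1 (Finset.mem_filter.1 ht).1
        have ht2' := (memI t').1 (Finset.mem_filter.1 ht').1
        obtain ⟨h2, h3⟩ := h.inj_aux hP ht2.2 ht2.1 ht2'.2 hx hx' he2
        subst h2; subst h3; rfl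
      exact Nat.le_of_mul_le_mul_right h1 hq0
  -- (e)
  have hAc : A.card * (2 * k) + 1 = q := by
    have h1 := h.card_one P
    rw [hkw] at h1
    have h2 : Nat.card {b : Sylow p G // zz b ≤ (P : Subgroup G)} = A.card := by
      rw [Nat.card_eq_fintype_card, Fintype.card_subtype]
    rwa [h2] at h1
  have hdisj : Disjoint A B := by
    rw [Finset.disjoint_left]
    intro b hb1 hb2
    rw [hA, Finset.mem_filter] at hb1
    rw [hB, Finset.mem_filter] at hb2
    obtain ⟨w, hw, hw1⟩ := h.exists_zz b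
    have h1 : w ∈ (P : Subgroup G) ⊓ (b : Subgroup G) := ⟨hb1.2 hw, (mem_zz.1 hw).1⟩
    rw [hb2.2, Subgroup.mem_bot] at h1
    exact hw1 h1
  have hAB : A.card + B.card ≤ Fintype.card (Sylow p G) := by
    rw [← Finset.card_union_of_disjoint hdisj]
    exact Finset.card_le_univ _
  have hn : Fintype.card (Sylow p G) = (q + 1) * A.card := by
    rw [Nat.card_eq_fintype_card] at hkn
    apply Nat.eq_of_mul_eq_mul_right hk0
    rw [hkn, hc.1]
    have h1 : O = A.card * k := by
      have : 2 * O + 1 = 2 * (A.card * k) + 1 := by rw [hc.2, ← hAc]; ring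
      omega
    rw [h1]; ring
  have hBq : q * A.card ≤ B.card := by
    have h1 : O = A.card * k := by
      have : 2 * O + 1 = 2 * (A.card * k) + 1 := by rw [hc.2, ← hAc]; ring
      omega
    have h2 : k * (q * A.card) ≤ k * B.card := by
      calc k * (q * A.card) = q * O := by rw [h1]; ring
        _ ≤ I.card := hb
        _ ≤ k * B.card := hIB
    exact Nat.le_of_mul_le_mul_left h2 hk0
  have hun : A ∪ B = Finset.univ := by
    apply Finset.eq_univ_of_card
    rw [Finset.card_union_of_disjoint hdisj]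
    apply le_antisymm hAB
    rw [hn]
    have : (q + 1) * A.card = A.card + q * A.card := by ring
    rw [this]
    omega
  -- (f)
  have hf : ∀ c ∈ A, c = P := by
    intro c hcA
    have hcP : zz c ≤ (P : Subgroup G) := by
      rw [hA, Finset.mem_filter] at hcA
      exact hcA.2
    set A' : Finset (Sylow p G) := Finset.univ.filter (fun b => zz b ≤ (c : Subgroup G)) with hA'
    have hsub : A' ⊆ A := by
      intro b hbA'
      rw [hA', Finset.mem_filter] at hbA'
      have h1 : b ∈ A ∪ B := by rw [hun]; exact Finset.mem_univ _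
      rcases Finset.mem_union.1 h1 with h2 | h2
      · exact h2
      · exfalso
        rw [hB, Finset.mem_filter] at h2
        obtain ⟨w, hw, hw1⟩ := h.exists_zz c
        have h3 := h.symm_le hbA'.2 hw
        have h4 : w ∈ (P : Subgroup G) ⊓ (b : Subgroup G) := ⟨hcP hw, h3⟩
        rw [h2.2, Subgroup.mem_bot] at h4
        exact hw1 h4
    have hcard : A'.card = A.card := by
      have h1 := h.card_one c
      have h2 : Nat.card {b : Sylow p G // zz b ≤ (c : Subgroup G)} = A'.card := by
        rw [Nat.card_eq_fintype_card, Fintype.card_subtype]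
      rw [h2, card_zz c P, hkw] at h1
      have h3 : A'.card * (2 * k) = A.card * (2 * k) := by omega
      exact Nat.eq_of_mul_eq_mul_right (by omega) h3
    have heq : A' = A := Finset.eq_of_subset_of_card_le hsub hcard.ge
    symm
    apply Sylow.ext
    apply Subgroup.eq_of_le_of_card_ge
    · intro x hx
      by_cases hx1 : x = 1
      · rw [hx1]; exact Subgroup.one_mem _
      obtain ⟨b, hb1, -⟩ := h.exists_mem_zz (h.pow_of_mem hx) hx1
      have h1 : b ∈ A := by
        rw [hA, Finset.mem_filter]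
        exact ⟨Finset.mem_univ _, h.adj hx hx1 hb1⟩
      rw [← heq, hA', Finset.mem_filter] at h1
      exact h1.2 hb1
    · have h1 := h.card_syl c
      have h2 := h.card_syl P
      exact (h1.trans h2.symm).le
  apply hP
  intro x hx y hy
  by_cases hx1 : x = 1
  · rw [hx1, mul_one, one_mul]
  obtain ⟨b, hb1, -⟩ := h.exists_mem_zz (h.pow_of_mem hx) hx1
  have h1 : b ∈ A := by
    rw [hA, Finset.mem_filter]
    exact ⟨Finset.mem_univ _, h.adj hx hx1 hb1⟩
  have h2 := hf b h1
  subst h2
  exact (mem_zz.1 hb1).2 y hy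

end

end Cfsg.Agent.JW
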